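import Mathlib

/-!
# S4577, parity: a self-dual lattice over a discrete valuation ring (helper690)

`O` a subring of the field `K` such that every nonzero element of `K` is a power of `π` times a unit of `O`; `S` an
invertible matrix, `Λ` the `O`-span of a finite family `v`, spanning `K ^ ι`, with `Λ = {a | T (a, v j) ∈ O}` for
`T (a, b) = a ⬝ᵥ S b`. Then `det S` is a square times a unit of `O` (`exists_sq`).
-/

set_option autoImplicit false

namespace Cfsg.Agent.H690.KS

open Matrix

section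

variable {K : Type*} [Field K] {O : Subring K} {ι : Type*} [Fintype ι] [DecidableEq ι]

/-- the determinant of a matrix over a subring -/
theorem det_mem {A : Matrix ι ι K} (hA : ∀ i j, A i j ∈ O) : A.det ∈ O := by
  rw [Matrix.det_apply]
  refine O.sum_mem fun σ _ => ?_
  have h1 : ∏ i, A (σ i) i ∈ O := O.prod_mem fun i _ => hA _ _
  rw [Units.smul_def, zsmul_eq_mul]
  exact O.mul_mem (intCast_mem O _) h1

/-- a spanning family contains a basis -/
theorem exists_det_ne {κ : Type*} [Fintype κ] {v : κ → ι → K} (hspan : Submodule.span K (Set.range v) = ⊤) :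
    ∃ s : ι → κ, (Matrix.of fun i => v (s i)).det ≠ 0 := by
  classical
  obtain ⟨b, hb1, hb2, hb3⟩ := exists_linearIndependent K (Set.range v)
  rw [hspan] at hb2
  let B : Module.Basis b K (ι → K) := Module.Basis.mk hb3 (by rw [Subtype.range_coe, hb2])
  have hfb : Finite b := Set.Finite.subset (Set.finite_range v) hb1
  let _ : Fintype b := Fintype.ofFinite b
  have hcard : Fintype.card ι = Fintype.card b := by
    rw [← Module.finrank_eq_card_basis B, Module.finrank_fintype_fun_eq_card]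
  let e : ι ≃ b := Fintype.equivOfCardEq hcard
  have hpre : ∀ i, ∃ j, v j = (e i : ι → K) := fun i => hb1 (e i).2
  choose s hs using hpre
  refine ⟨s, ?_⟩
  have h1 : LinearIndependent K (fun i => (Matrix.of fun i => v (s i)) i) := by
    have h2 : (fun i => (Matrix.of fun i => v (s i)) i) = fun i => ((e i : b) : ι → K) := by
      funext i
      exact hs i
    rw [h2]
    exact hb3.comp e e.injective
  have h3 : IsUnit (Matrix.of fun i => v (s i)) := Matrix.linearIndependent_rows_iff_isUnit.1 h1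
  exact ((Matrix.isUnit_iff_isUnit_det _).1 h3).ne_zero

variable {π : K}

/-- the valuation -/
theorem div_mem (hπ : π ∈ O) (hπ' : π⁻¹ ∉ O)
    {n n' : ℤ} {u u' z z' : K} (hu : u ∈ O) (hu1 : u⁻¹ ∈ O) (hu' : u' ∈ O) (hz : z = π ^ n * u) (hz' : z' = π ^ n' * u')
    (hz0 : z ≠ 0) (hn : n ≤ n') : z' / z ∈ O := by
  have hπ0 : π ≠ 0 := by
    rintro rfl
    apply hπ'
    rw [_root_.inv_zero]
    exact O.zero_mem
  have hu0 : u ≠ 0 := by
    rintro rfl
    exact hz0 (by rw [hz, mul_zero])
  obtain ⟨k, hk⟩ := Int.le.dest hn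
  have h1 : z' / z = π ^ k * (u' * u⁻¹) := by
    rw [hz, hz', ← hk, zpow_add₀ hπ0, zpow_natCast]
    have h2 : π ^ n ≠ 0 := zpow_ne_zero _ hπ0
    field_simp
  rw [h1]
  exact O.mul_mem (O.pow_mem hπ _) (O.mul_mem hu' hu1)

/-- **The determinant of the form of a self-dual lattice is a unit times a square.** -/
theorem exists_sq (hπ : π ∈ O) (hπ' : π⁻¹ ∉ O)
    (hfac : ∀ z : K, z ≠ 0 → ∃ (n : ℤ) (u : K), u ∈ O ∧ u⁻¹ ∈ O ∧ z = π ^ n * u)
    (S : Matrix ι ι K) (hS : S.det ≠ 0) {κ : Type*} [Fintype κ] (v : κ → ι → K)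
    (hint : ∀ j k, v j ⬝ᵥ S.mulVec (v k) ∈ O)
    (hdual : ∀ a : ι → K, (∀ j, a ⬝ᵥ S.mulVec (v j) ∈ O) → a ∈ Submodule.span O (Set.range v))
    (hspan : Submodule.span K (Set.range v) = ⊤) :
    ∃ d : K, d ≠ 0 ∧ d ^ 2 * S.det ∈ O ∧ (d ^ 2 * S.det)⁻¹ ∈ O := by
  classical
  -- a subfamily with determinant of minimal valuation
  let D : (ι → κ) → K := fun s => (Matrix.of fun i => v (s i)).det
  have hfac' : ∀ z : K, ∃ n : ℤ, z ≠ 0 → ∃ u : K, u ∈ O ∧ u⁻¹ ∈ O ∧ z = π ^ n * u := by
    intro z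
    by_cases hz : z = 0
    · exact ⟨0, fun h => absurd hz h⟩
    · obtain ⟨n, h⟩ := hfac z hz
      exact ⟨n, fun _ => h⟩
  choose f hf using hfac'
  obtain ⟨s₀, hs₀⟩ := exists_det_ne hspan
  obtain ⟨s, hs, hmin⟩ := Finset.exists_min_image (Finset.univ.filter fun s : ι → κ => D s ≠ 0) (fun s => f (D s))
    ⟨s₀, Finset.mem_filter.2 ⟨Finset.mem_univ _, hs₀⟩⟩
  have hs0 : D s ≠ 0 := (Finset.mem_filter.1 hs).2
  have hdiv : ∀ s' : ι → κ, D s' / D s ∈ O := by
    intro s'
    by_cases h0 : D s' = 0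
    · rw [h0, zero_div]
      exact O.zero_mem
    · obtain ⟨u, hu, hu1, hz⟩ := hf _ hs0
      obtain ⟨u', hu', -, hz'⟩ := hf _ h0
      exact div_mem hπ hπ' hu hu1 hu' hz hz' hs0 (hmin s' (Finset.mem_filter.2 ⟨Finset.mem_univ _, h0⟩))
  set P : Matrix ι ι K := Matrix.of fun i => v (s i) with hP
  have hPdet : P.det = D s := rfl
  -- Cramer's rule
  have hcr : ∀ j, ∃ c : ι → O, v j = ∑ i, c i • v (s i) := by
    intro j
    refine ⟨fun i => ⟨D (Function.update s i j) / D s, hdiv _⟩, ?_⟩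
    have h1 := Matrix.mulVec_cramer Pᵀ (v j)
    rw [Matrix.det_transpose, hPdet] at h1
    have h2 : ∀ i, Matrix.cramer Pᵀ (v j) i = D (Function.update s i j) := by
      intro i
      rw [Matrix.cramer_apply, Matrix.updateCol_transpose, Matrix.det_transpose]
      show (P.updateRow i (v j)).det = (Matrix.of fun k => v (Function.update s i j k)).det
      congr 1
      ext a b
      by_cases h : a = i
      · subst h
        rw [Matrix.updateRow_self, Matrix.of_apply, Function.update_self]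
      · rw [Matrix.updateRow_ne h, Matrix.of_apply, Function.update_of_ne h]
        rfl
    funext b
    have h3 := congrFun h1 b
    rw [Pi.smul_apply, smul_eq_mul] at h3
    have h4 : v j b = (D s)⁻¹ * (Pᵀ *ᵥ (Matrix.cramer Pᵀ (v j))) b := by
      rw [h3, inv_mul_cancel_left₀ hs0]
    rw [h4, Matrix.mulVec, dotProduct, Finset.mul_sum, Finset.sum_apply]
    refine Finset.sum_congr rfl fun i _ => ?_
    rw [h2, Pi.smul_apply, Subring.smul_def, smul_eq_mul, Matrix.transpose_apply, hP, Matrix.of_apply]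
    show (D s)⁻¹ * (v (s i) b * D (Function.update s i j)) = D (Function.update s i j) / D s * v (s i) b
    rw [div_eq_mul_inv]
    ring
  have hsub : Submodule.span O (Set.range v) ≤ Submodule.span O (Set.range fun i => v (s i)) := by
    rw [Submodule.span_le]
    rintro _ ⟨j, rfl⟩
    obtain ⟨c, hc⟩ := hcr j
    rw [hc]
    exact Submodule.sum_mem _ fun i _ => Submodule.smul_mem _ _ (Submodule.subset_span ⟨i, rfl⟩)
  -- the dual basis
  have hSP : IsUnit (S * Pᵀ).det := by
    rw [Matrix.det_mul, Matrix.det_transpose]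
    exact isUnit_iff_ne_zero.2 (mul_ne_zero hS (by rw [hPdet]; exact hs0))
  set A : Matrix ι ι K := (S * Pᵀ)⁻¹ with hA
  have hA1 : A * (S * Pᵀ) = 1 := Matrix.nonsing_inv_mul _ hSP
  have hT : ∀ i k, A i ⬝ᵥ S.mulVec (v (s k)) = (1 : Matrix ι ι K) i k := by
    intro i k
    rw [← hA1, Matrix.mul_apply_eq_vecMul, Matrix.vecMul]
    show A i ⬝ᵥ S.mulVec (v (s k)) = A i ⬝ᵥ fun l => (S * Pᵀ) l k
    congr 1
  have hAmem : ∀ i, A i ∈ Submodule.span O (Set.range fun i => v (s i)) := by
    intro i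
    refine hsub (hdual _ fun j => ?_)
    obtain ⟨c, hc⟩ := hcr j
    have h1 : S.mulVec (v j) = ∑ k, c k • S.mulVec (v (s k)) := by
      rw [hc, Matrix.mulVec_sum]
      refine Finset.sum_congr rfl fun k _ => ?_
      exact Matrix.mulVec_smul S (c k) (v (s k))
    rw [h1, dotProduct_sum]
    refine O.sum_mem fun k _ => ?_
    rw [dotProduct_smul, hT]
    rw [Subring.smul_def, smul_eq_mul]
    refine O.mul_mem (c k).2 ?_
    rw [Matrix.one_apply]
    split_ifs
    · exact O.one_mem
    · exact O.zero_mem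
  have hC : ∀ i, ∃ c : ι → O, ∑ k, c k • v (s k) = A i := fun i =>
    (Submodule.mem_span_range_iff_exists_fun O).1 (hAmem i)
  choose C hC using hC
  let C' : Matrix ι ι K := Matrix.of fun i k => (C i k : K)
  have hAC : A = C' * P := by
    ext i b
    rw [← hC i, Finset.sum_apply, Matrix.mul_apply]
    refine Finset.sum_congr rfl fun k _ => ?_
    rw [Pi.smul_apply, Subring.smul_def, smul_eq_mul]
    rfl
  have hG : ∀ i k, (P * (S * Pᵀ)) i k ∈ O := by
    intro i k
    have h1 := hint (s i) (s k)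
    have h2 : (P * (S * Pᵀ)) i k = v (s i) ⬝ᵥ S.mulVec (v (s k)) := by
      rw [Matrix.mul_apply_eq_vecMul, Matrix.vecMul]
      rfl
    rw [h2]
    exact h1
  have hone : C'.det * (P * (S * Pᵀ)).det = 1 := by
    rw [← Matrix.det_mul, ← Matrix.mul_assoc, ← hAC, hA1, Matrix.det_one]
  have hdet : (P * (S * Pᵀ)).det = (D s) ^ 2 * S.det := by
    rw [Matrix.det_mul, Matrix.det_mul, Matrix.det_transpose, hPdet]
    ring
  refine ⟨D s, hs0, ?_, ?_⟩
  · rw [← hdet]
    exact det_mem hG
  · rw [← hdet, ← eq_inv_of_mul_eq_one_left hone]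
    exact det_mem fun i k => (C i k).2

end

end Cfsg.Agent.H690.KS
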